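import Mathlib

/-!
A group of odd order acting on an elementary abelian 2-group: two vectors with coprime orbit
lengths give a vector whose orbit length is the product.
-/

set_option autoImplicit false

namespace Cfsg.Agent.H64.RealGraph

open MulAction

variable {D V : Type*} [Group D] [Finite D] [CommGroup V] [Finite V] [MulDistribMulAction D V]

/-- The product of the translates under a subgroup. -/
noncomputable def avg (S : Subgroup D) : V →* V :=
  letI := Fintype.ofFinite S
  { toFun := fun x => ∏ s : S, (s : D) • x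
    map_one' := by simp
    map_mul' := fun x y => by simp [Finset.prod_mul_distrib] }

theorem pow_odd_eq {M : Type*} [Monoid M] {x : M} (hx : x * x = 1) {n : ℕ} (hn : Odd n) :
    x ^ n = x := by
  obtain ⟨k, rfl⟩ := hn
  rw [pow_succ, pow_mul, pow_two, hx, one_pow, one_mul]

theorem avg_fixed (hD : Odd (Nat.card D)) (hV : ∀ x : V, x * x = 1) (S : Subgroup D) {x : V}
    (h : ∀ s ∈ S, s • x = x) : avg S x = x := by
  letI := Fintype.ofFinite S
  change ∏ s : S, (s : D) • x = x
  rw [Finset.prod_congr rfl (fun s _ => h s.1 s.2), Finset.prod_const, Finset.card_univ,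
    ← Nat.card_eq_fintype_card]
  exact pow_odd_eq (hV x) (hD.of_dvd_nat (Subgroup.card_subgroup_dvd_card S))

theorem avg_smul (S : Subgroup D) {a : D} (ha : a ∈ S) (x : V) : avg S (a • x) = avg S x := by
  letI := Fintype.ofFinite S
  change ∏ s : S, (s : D) • a • x = ∏ s : S, (s : D) • x
  exact Fintype.prod_equiv (Equiv.mulRight (⟨a, ha⟩ : S)) _ _
    fun s => by simp [Equiv.mulRight, mul_smul]

theorem smul_avg_top (g : D) (x : V) : g • avg (⊤ : Subgroup D) x = avg (⊤ : Subgroup D) x := by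
  letI := Fintype.ofFinite (⊤ : Subgroup D)
  change g • (∏ s : (⊤ : Subgroup D), (s : D) • x) = ∏ s : (⊤ : Subgroup D), (s : D) • x
  rw [Finset.smul_prod']
  exact Fintype.prod_equiv (Equiv.mulLeft (⟨g, trivial⟩ : (⊤ : Subgroup D))) _ _
    fun s => by simp [Equiv.mulLeft, mul_smul]

/-- If `S` is transitive on the orbit of a norm-one vector, it averages the orbit to one. -/
theorem avg_orbit (hD : Odd (Nat.card D)) (hV : ∀ x : V, x * x = 1) (S : Subgroup D) {v : V}
    (hv : avg (⊤ : Subgroup D) v = 1)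
    (hS : ∀ g : D, ∃ a ∈ S, ∃ b ∈ stabilizer D v, g = a * b) (g : D) : avg S (g • v) = 1 := by
  have key : ∀ g : D, avg S (g • v) = avg S v := fun g => by
    obtain ⟨a, ha, b, hb, rfl⟩ := hS g
    rw [mul_smul, mem_stabilizer_iff.1 hb, avg_smul S ha]
  letI := Fintype.ofFinite (⊤ : Subgroup D)
  have h1 : avg S (avg (⊤ : Subgroup D) v) = 1 := by rw [hv, map_one]
  change avg S (∏ s : (⊤ : Subgroup D), (s : D) • v) = 1 at h1
  rw [map_prod, Finset.prod_congr rfl (fun s _ => key s.1), Finset.prod_const,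
    Finset.card_univ, ← Nat.card_eq_fintype_card] at h1
  rw [key g]
  rw [pow_odd_eq (hV _) (hD.of_dvd_nat (Subgroup.card_subgroup_dvd_card _))] at h1
  exact h1

theorem exists_retraction (hV : ∀ x : V, x * x = 1) (U : Subgroup V) :
    ∃ p : V →* V, (∀ x, p x ∈ U) ∧ ∀ u ∈ U, p u = u := by
  obtain ⟨W, hW⟩ := (Set.toFinite {W : Subgroup V | W ⊓ U = ⊥}).exists_maximal ⟨⊥, by simp⟩
  have hWU : W ⊓ U = ⊥ := hW.1
  have hex : ∀ x : V, ∃ u ∈ U, ∃ w ∈ W, u * w = x := by
    intro x
    by_contra hx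
    have hlt : ¬ W ⊔ Subgroup.zpowers x ≤ W := fun h =>
      hx ⟨1, one_mem _, x, h (Subgroup.mem_sup_right (Subgroup.mem_zpowers x)), one_mul x⟩
    refine hlt (hW.2 ?_ le_sup_left)
    refine (Subgroup.eq_bot_iff_forall _).2 fun y hy => ?_
    obtain ⟨hy1, hyU⟩ := hy
    obtain ⟨w, hw, z, hz, rfl⟩ := Subgroup.mem_sup.1 hy1
    obtain ⟨i, rfl⟩ := Subgroup.mem_zpowers_iff.1 hz
    obtain ⟨k, rfl | rfl⟩ := Int.even_or_odd' i
    · have e : x ^ (2 * k) = 1 := by rw [zpow_mul, zpow_two, hV, one_zpow]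
      rw [e, mul_one] at hyU ⊢
      exact (Subgroup.eq_bot_iff_forall _).1 hWU w ⟨hw, hyU⟩
    · have e : x ^ (2 * k + 1) = x := by
        rw [zpow_add_one, zpow_mul, zpow_two, hV, one_zpow, one_mul]
      rw [e] at hyU
      exact absurd ⟨w * x, hyU, w, hw, by rw [mul_comm w x, mul_assoc, hV, mul_one]⟩ hx
  choose f hfU g hgW hfg using hex
  have huniq : ∀ {x u w : V}, u ∈ U → w ∈ W → u * w = x → f x = u := by
    intro x u w hu hw h
    have h1 : f x * g x = u * w := (hfg x).trans h.symm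
    have h2 : u⁻¹ * f x = w * (g x)⁻¹ := by
      rw [inv_mul_eq_iff_eq_mul, ← mul_assoc, ← h1, mul_inv_cancel_right]
    have h3 : u⁻¹ * f x ∈ W ⊓ U := Subgroup.mem_inf.2
      ⟨h2 ▸ mul_mem hw (inv_mem (hgW x)), mul_mem (inv_mem hu) (hfU x)⟩
    rw [hWU, Subgroup.mem_bot, inv_mul_eq_one] at h3
    exact h3.symm
  refine ⟨{ toFun := f, map_one' := huniq (one_mem _) (one_mem _) (one_mul 1),
            map_mul' := fun x y => huniq (mul_mem (hfU x) (hfU y)) (mul_mem (hgW x) (hgW y)) ?_ },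
    hfU, fun u hu => huniq hu (one_mem _) (mul_one u)⟩
  rw [mul_mul_mul_comm, hfg, hfg]

/-- Two vectors with coprime orbit lengths give one whose orbit length is the product. -/
theorem exists_stabilizer_index (hD : Odd (Nat.card D)) (hV : ∀ x : V, x * x = 1)
    (hfac : ∀ A B : Subgroup D, A.index.Coprime B.index →
      (A ⊓ B).index = A.index * B.index ∧ ∀ g : D, ∃ a ∈ A, ∃ b ∈ B, g = a * b)
    (v₀ w₀ : V) (hco : (stabilizer D v₀).index.Coprime (stabilizer D w₀).index) :
    ∃ z : V, (stabilizer D z).index = (stabilizer D v₀).index * (stabilizer D w₀).index := by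
  have hst : ∀ x : V, stabilizer D (x * avg (⊤ : Subgroup D) x) = stabilizer D x := fun x => by
    ext g
    simp [mem_stabilizer_iff, smul_mul', smul_avg_top]
  have hn1 : ∀ x : V, avg (⊤ : Subgroup D) (x * avg (⊤ : Subgroup D) x) = 1 := fun x => by
    rw [map_mul, avg_fixed hD hV ⊤ (fun g _ => smul_avg_top g x), hV]
  rw [← hst v₀, ← hst w₀] at hco ⊢
  have hv := hn1 v₀
  have hw := hn1 w₀
  set v := v₀ * avg (⊤ : Subgroup D) v₀
  set w := w₀ * avg (⊤ : Subgroup D) w₀
  set A := Subgroup.closure (orbit D v) with hA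
  set B := Subgroup.closure (orbit D w) with hB
  have hinv : ∀ (u : V) (g : D) (x : V), x ∈ Subgroup.closure (orbit D u) →
      g • x ∈ Subgroup.closure (orbit D u) := fun u g x hx =>
    (Subgroup.closure_le ((Subgroup.closure (orbit D u)).comap
      (MulDistribMulAction.toMonoidHom V g))).2
      (fun y hy => Subgroup.subset_closure (by
        obtain ⟨c, rfl⟩ := hy
        exact ⟨g * c, mul_smul g c u⟩)) hx
  have hkillA : ∀ x ∈ A, avg (stabilizer D w) x = 1 := fun x hx =>
    (Subgroup.closure_le (avg (stabilizer D w)).ker).2 (fun y hy => by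
      obtain ⟨c, rfl⟩ := hy
      exact avg_orbit hD hV _ hv (fun g => (hfac _ _ hco.symm).2 g) c) hx
  set U := A ⊓ B with hU
  obtain ⟨p, hpU, hpid⟩ := exists_retraction hV U
  letI := Fintype.ofFinite D
  have hUinv : ∀ (g : D) (x : V), x ∈ U → g • x ∈ U := fun g x hx =>
    ⟨hinv v g x hx.1, hinv w g x hx.2⟩
  let pb : V →* V :=
    { toFun := fun x => ∏ g : D, g • p (g⁻¹ • x)
      map_one' := by simp
      map_mul' := fun x y => by simp [Finset.prod_mul_distrib, smul_mul'] }
  have hpbU : ∀ x, pb x ∈ U := fun x => Subgroup.prod_mem _ fun g _ => hUinv g _ (hpU _)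
  have hpbid : ∀ u ∈ U, pb u = u := fun u hu => by
    change ∏ g : D, g • p (g⁻¹ • u) = u
    rw [Finset.prod_congr rfl (fun g _ => by rw [hpid _ (hUinv g⁻¹ u hu), smul_inv_smul]),
      Finset.prod_const, Finset.card_univ, ← Nat.card_eq_fintype_card]
    exact pow_odd_eq (hV u) hD
  have hpbsmul : ∀ (a : D) (x : V), pb (a • x) = a • pb x := fun a x => by
    change ∏ g : D, g • p (g⁻¹ • a • x) = a • ∏ g : D, g • p (g⁻¹ • x)
    rw [Finset.smul_prod']
    refine (Fintype.prod_equiv (Equiv.mulLeft a) _ _ fun g => ?_).symm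
    simp [Equiv.mulLeft, mul_smul]
  have hw1 : pb w = 1 := by
    have hfix : ∀ s ∈ stabilizer D w, s • pb w = pb w := fun s hs => by
      rw [← hpbsmul, mem_stabilizer_iff.1 hs]
    rw [← avg_fixed hD hV (stabilizer D w) hfix]
    exact hkillA _ (hpbU w).1
  have hUbot : U = ⊥ := (Subgroup.eq_bot_iff_forall _).2 fun u hu => by
    rw [← hpbid u hu]
    exact (Subgroup.closure_le pb.ker).2 (fun y hy => by
      obtain ⟨c, rfl⟩ := hy
      change pb (c • w) = 1
      rw [hpbsmul, hw1, smul_one]) hu.2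
  refine ⟨v * w, ?_⟩
  rw [← (hfac _ _ hco).1]
  congr 1
  ext g
  simp only [Subgroup.mem_inf, mem_stabilizer_iff, smul_mul']
  refine ⟨fun h => ?_, fun h => by rw [h.1, h.2]⟩
  have heq : v⁻¹ * g • v = w * (g • w)⁻¹ := by
    rw [eq_mul_inv_iff_mul_eq, mul_assoc, h, inv_mul_cancel_left]
  have hmem : v⁻¹ * g • v ∈ U := Subgroup.mem_inf.2
    ⟨mul_mem (inv_mem (Subgroup.subset_closure (mem_orbit_self v)))
      (Subgroup.subset_closure (mem_orbit v g)),
     heq ▸ mul_mem (Subgroup.subset_closure (mem_orbit_self w))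
      (inv_mem (Subgroup.subset_closure (mem_orbit w g)))⟩
  rw [hUbot, Subgroup.mem_bot, inv_mul_eq_one] at hmem
  refine ⟨hmem.symm, ?_⟩
  rw [← hmem] at h
  exact mul_left_cancel h

end Cfsg.Agent.H64.RealGraph
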