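import Mathlib

/-!
A soluble group generated by 2-elements with no nontrivial real `q`-element (`q` odd) has order
prime to `q`.
-/

set_option autoImplicit false

namespace Cfsg.Agent.H64.RealGraph

open Subgroup

/-- No nontrivial real element of `q`-power order. -/
def NoReal (q : ℕ) (G : Type*) [Group G] : Prop :=
  ∀ x : G, (∃ k : ℕ, x ^ q ^ k = 1) → IsConj x x⁻¹ → x = 1

universe u

variable {G : Type u} [Group G] [Finite G] {q : ℕ}

theorem normalizerHom_coe {Q : Subgroup G} (i : normalizer (Q : Set G)) (x : Q) :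
    ((Q.normalizerMonoidHom i x : Q) : G) = (i : G) * x * (i : G)⁻¹ := rfl

theorem mem_normalizer_of_conj_mem {S : Set G} {g : G}
    (h : ∀ x ∈ S, g * x * g⁻¹ ∈ S) : g ∈ normalizer S := by
  rw [mem_set_normalizer_iff]
  refine fun x => ⟨h x, fun hx => ?_⟩
  obtain ⟨⟨y, hy⟩, e⟩ := Finite.surjective_of_injective
    (f := fun y : S => (⟨g * y * g⁻¹, h y y.2⟩ : S))
    (fun a b e => Subtype.ext (mul_left_cancel (mul_right_cancel (congrArg Subtype.val e))))
    ⟨g * x * g⁻¹, hx⟩
  exact mul_left_cancel (mul_right_cancel (congrArg Subtype.val e)) ▸ hy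

/-- A normalising element acts on a `q`-subgroup by an automorphism of odd order. -/
theorem odd_orderOf_action (hno : NoReal q G) {Q : Subgroup G} (hQ : IsPGroup q Q)
    (i : normalizer (Q : Set G)) : Odd (orderOf (Q.normalizerMonoidHom i)) := by
  set φ := Q.normalizerMonoidHom i with hφ
  by_contra hodd
  obtain ⟨r, hr⟩ := Nat.not_odd_iff_even.1 hodd
  have hpos : 0 < orderOf φ := orderOf_pos φ
  have hτ : φ ^ r ≠ 1 := pow_ne_one_of_lt_orderOf (by omega) (by omega)
  obtain ⟨x, hx⟩ : ∃ x : Q, (φ ^ r) x ≠ x := by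
    by_contra h
    push Not at h
    exact hτ (MulEquiv.ext fun x => by simpa using h x)
  set z := x⁻¹ * (φ ^ r) x with hz
  have h2 : (φ ^ r) ((φ ^ r) x) = x := by
    rw [← MulAut.mul_apply, ← pow_add, ← hr, pow_orderOf_eq_one, MulAut.one_apply]
  have hzinv : (φ ^ r) z = z⁻¹ := by rw [hz, map_mul, map_inv, h2]; group
  rw [hφ, ← map_pow] at hzinv
  have hconj := congrArg (fun y : Q => (y : G)) hzinv
  simp only [normalizerHom_coe, Subgroup.coe_inv] at hconj
  obtain ⟨k, hk⟩ := hQ z
  have hz1 := hno (z : G) ⟨k, by exact_mod_cast congrArg (fun y : Q => (y : G)) hk⟩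
    (isConj_iff.2 ⟨_, hconj⟩)
  exact hx (inv_mul_eq_one.1 (Subtype.ext hz1 : z = 1)).symm

/-- The hypothesis passes to quotients. -/
theorem noReal_quotient [hq : Fact q.Prime] (hq2 : q ≠ 2) (hno : NoReal q G) (N : Subgroup G)
    [N.Normal] : NoReal q (G ⧸ N) := by
  rintro xb ⟨k, hk⟩ hxb
  obtain ⟨ib, hib⟩ := isConj_iff.1 hxb
  obtain ⟨i, rfl⟩ := QuotientGroup.mk'_surjective N ib
  set π := QuotientGroup.mk' N with hπ
  set Z := zpowers xb with hZ
  set P := Z.comap π with hP
  obtain ⟨Q⟩ := (inferInstance : Nonempty (Sylow q P))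
  have hconjZ : ∀ y, y ∈ Z ↔ π i * y * (π i)⁻¹ ∈ Z := by
    intro y
    have e : Z.map (MulAut.conj (π i)).toMonoidHom = Z := by
      rw [hZ, MonoidHom.map_zpowers]
      simp [hib, zpowers_inv]
    constructor
    · intro hy
      rw [← e]
      exact ⟨y, hy, rfl⟩
    · intro hy
      rw [← e] at hy
      obtain ⟨z, hz, hzy⟩ := hy
      simp only [MulEquiv.coe_toMonoidHom, MulAut.conj_apply, mul_left_inj, mul_right_inj] at hzy
      exact hzy ▸ hz
  let φ : P ≃* P :=
    { toFun := fun a => ⟨i * a * i⁻¹, by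
        change π (i * a * i⁻¹) ∈ Z
        rw [map_mul, map_mul, map_inv]
        exact (hconjZ _).1 a.2⟩
      invFun := fun a => ⟨i⁻¹ * a * i, by
        refine (hconjZ _).2 ?_
        rw [← map_inv, ← map_mul, ← map_mul]
        rw [show i * (i⁻¹ * (a : G) * i) * i⁻¹ = (a : G) by group]
        exact a.2⟩
      left_inv := fun a => Subtype.ext (by simp [mul_assoc])
      right_inv := fun a => Subtype.ext (by simp [mul_assoc])
      map_mul' := fun a b => Subtype.ext (by simp [mul_assoc]) }
  obtain ⟨c, hc⟩ := MulAction.exists_smul_eq P ((φ : MulAut P) • Q) Q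
  set Q' := (Q : Subgroup P).map P.subtype with hQ'
  have hj : (c : G) * i ∈ normalizer (Q' : Set G) := by
    refine mem_normalizer_of_conj_mem ?_
    rintro _ ⟨a, ha, rfl⟩
    have h1 : (MulAut.conj c) (φ a) ∈ (Q : Subgroup P) := by
      have h0 : φ a ∈ (((φ : MulAut P) • Q : Sylow q P) : Subgroup P) :=
        smul_mem_pointwise_smul a (φ : MulAut P) _ ha
      have h' := smul_mem_pointwise_smul (φ a) (MulAut.conj c) _ h0
      rw [← hc]
      exact h'
    exact ⟨_, h1, by simp [φ, mul_assoc]⟩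
  set j : normalizer (Q' : Set G) := ⟨(c : G) * i, hj⟩ with hj'
  have hQ'p : IsPGroup q Q' := Q.isPGroup'.map _
  set o := orderOf (Q'.normalizerMonoidHom j) with ho
  have hodd : Odd o := odd_orderOf_action hno hQ'p j
  -- the image of `Q` is the whole of `Z`
  let f : P →* Z := (π.comp P.subtype).codRestrict Z fun a => a.2
  have hf : Function.Surjective f := by
    rintro ⟨y, hy⟩
    obtain ⟨g, rfl⟩ := QuotientGroup.mk'_surjective N y
    exact ⟨⟨g, hy⟩, rfl⟩
  have hZp : IsPGroup q Z := by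
    rw [hZ]
    obtain ⟨m, -, hm⟩ := (Nat.dvd_prime_pow hq.out).1 (orderOf_dvd_of_pow_eq_one hk)
    exact IsPGroup.of_card (n := m) (by rw [Nat.card_zpowers, hm])
  have htop : ((Q.mapSurjective hf : Sylow q Z) : Subgroup Z) = ⊤ :=
    ((Q.mapSurjective hf).is_maximal' (hZp.to_subgroup ⊤) le_top).symm
  obtain ⟨a, ha, hax⟩ : (⟨xb, mem_zpowers xb⟩ : Z) ∈ (Q : Subgroup P).map f := by
    have : (⟨xb, mem_zpowers xb⟩ : Z) ∈ ((Q.mapSurjective hf : Sylow q Z) : Subgroup Z) := by
      rw [htop]; trivial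
    simpa using this
  have hax' : π (a : G) = xb := congrArg Subtype.val hax
  have hcx : π (c : G) * xb⁻¹ * (π (c : G))⁻¹ = xb⁻¹ := by
    obtain ⟨m, hm⟩ := mem_zpowers_iff.1 c.2
    rw [show π (c : G) = xb ^ m from hm.symm]
    group
  have hjx : π j * xb * (π j)⁻¹ = xb⁻¹ := by
    rw [hj']
    simp only [map_mul, mul_inv_rev]
    calc π c * π i * xb * ((π i)⁻¹ * (π c)⁻¹) = π c * (π i * xb * (π i)⁻¹) * (π c)⁻¹ := by group
      _ = _ := by rw [hib, hcx]
  have hpow : ∀ n : ℕ, π ((j : G) ^ n) * xb * (π ((j : G) ^ n))⁻¹ =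
      if Even n then xb else xb⁻¹ := by
    intro n
    induction n with
    | zero => simp
    | succ n ih =>
      rw [pow_succ', map_mul, mul_inv_rev]
      calc _ = π j * (π ((j : G) ^ n) * xb * (π ((j : G) ^ n))⁻¹) * (π j)⁻¹ := by group
        _ = _ := by
          rw [ih]
          by_cases hn : Even n
          · simp [hn, Nat.even_add_one, hjx]
          · simp only [hn, if_false, Nat.even_add_one, not_false_eq_true, if_true]
            rw [← conj_inv, hjx, inv_inv]
  have hcomm : (j : G) ^ o * a * ((j : G) ^ o)⁻¹ = a := by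
    have e : Q'.normalizerMonoidHom (j ^ o) = 1 := by rw [map_pow, ho, pow_orderOf_eq_one]
    have e' := congrArg (fun f => ((f ⟨(a : G), ⟨a, ha, rfl⟩⟩ : Q') : G)) e
    simp only [normalizerHom_coe, MulAut.one_apply, SubmonoidClass.coe_pow] at e'
    exact e'
  have h1 := hpow o
  rw [if_neg (Nat.not_even_iff_odd.2 hodd), ← hax', ← map_inv, ← map_mul, ← map_mul, hcomm] at h1
  have h2 : xb = xb⁻¹ := by rw [← hax']; simpa using h1
  have hd2 : orderOf xb ∣ 2 := orderOf_dvd_of_pow_eq_one (by
    rw [pow_two]; nth_rw 2 [h2]; exact mul_inv_cancel xb)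
  have hco : Nat.Coprime (q ^ k) 2 :=
    Nat.Coprime.pow_left _ ((Nat.coprime_primes hq.out Nat.prime_two).2 hq2)
  exact orderOf_eq_one_iff.1
    (Nat.eq_one_of_dvd_coprimes hco (orderOf_dvd_of_pow_eq_one hk) hd2)

/-- The subgroup generated by the 2-elements. -/
abbrev twoGen (G : Type*) [Group G] : Subgroup G :=
  closure {g : G | ∃ k : ℕ, orderOf g = 2 ^ k}

theorem not_dvd_card_of_twoGen_eq_top [hq : Fact q.Prime] (hq2 : q ≠ 2) :
    ∀ (n : ℕ) (G : Type u) [Group G] [Finite G] [Group.IsSolvable G], Nat.card G = n →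
      NoReal q G → twoGen G = ⊤ → ¬ q ∣ Nat.card G := by
  intro n
  induction n using Nat.strong_induction_on with
  | _ n ih =>
    intro G _ _ _ hn hno hgen hdvd
    classical
    haveI : Nontrivial G := Finite.one_lt_card_iff_nontrivial.1
      (hq.out.one_lt.trans_le (Nat.le_of_dvd Nat.card_pos hdvd))
    have hsol := (Group.isSolvable_def G).1 inferInstance
    obtain ⟨m, hm⟩ : ∃ m, Nat.find hsol = m + 1 := ⟨Nat.find hsol - 1, by
      have : Nat.find hsol ≠ 0 := fun h0 => by
        have := Nat.find_spec hsol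
        rw [h0, derivedSeries_zero] at this
        exact top_ne_bot this
      omega⟩
    set A := derivedSeries G m with hA
    have hA1 : A ≠ ⊥ := Nat.find_min hsol (by omega)
    haveI hAn : A.Normal := derivedSeries_normal G m
    have hAc : ∀ a ∈ A, ∀ b ∈ A, a * b = b * a := by
      intro a ha b hb
      have h := commutator_mem_commutator ha hb
      have h' : ⁅A, A⁆ = ⊥ := by
        have := Nat.find_spec hsol
        rw [hm, derivedSeries_succ] at this
        exact this
      rw [h', mem_bot, commutatorElement_eq_one_iff_mul_comm] at h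
      exact h
    have hquot : ¬ q ∣ A.index := by
      rw [index_eq_card]
      refine ih _ ?_ (G ⧸ A) rfl (noReal_quotient hq2 hno A) ?_
      · rw [← hn, card_eq_card_quotient_mul_card_subgroup A]
        refine lt_mul_of_one_lt_right Nat.card_pos ?_
        exact A.one_lt_card_iff_ne_bot.2 hA1
      · rw [eq_top_iff, ← map_top_of_surjective (QuotientGroup.mk' A)
          (QuotientGroup.mk'_surjective A), ← hgen, MonoidHom.map_closure, closure_le]
        rintro _ ⟨g, ⟨k, hk⟩, rfl⟩
        obtain ⟨j, -, hj⟩ := (Nat.dvd_prime_pow Nat.prime_two).1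
          (hk ▸ orderOf_map_dvd (QuotientGroup.mk' A) g)
        exact subset_closure ⟨j, hj⟩
    let Aq : Subgroup G :=
      { carrier := {a | a ∈ A ∧ ∃ k : ℕ, a ^ q ^ k = 1}
        one_mem' := ⟨one_mem _, 0, one_pow _⟩
        mul_mem' := by
          rintro a b ⟨ha, k, hk⟩ ⟨hb, l, hl⟩
          refine ⟨mul_mem ha hb, k + l, ?_⟩
          rw [Commute.mul_pow (hAc a ha b hb), pow_add, pow_mul, hk, one_pow,
            mul_comm (q ^ k), pow_mul, hl, one_pow, one_mul]
        inv_mem' := by
          rintro a ⟨ha, k, hk⟩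
          exact ⟨inv_mem ha, k, by rw [inv_pow, hk, inv_one]⟩ }
    haveI hAqn : Aq.Normal := ⟨fun a ⟨ha, k, hk⟩ g =>
      ⟨hAn.conj_mem a ha g, k, by rw [conj_pow, hk, mul_one, mul_inv_cancel]⟩⟩
    have hAqA : Aq ≤ A := fun a ha => ha.1
    have hAqp : IsPGroup q Aq := fun a => by
      obtain ⟨k, hk⟩ := a.2.2
      exact ⟨k, Subtype.ext (by simpa using hk)⟩
    have hrel : ¬ q ∣ Aq.relIndex A := by
      obtain ⟨R⟩ := (inferInstance : Nonempty (Sylow q A))
      intro h
      refine R.not_dvd_index (h.trans (index_dvd_of_le fun r hr => ?_))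
      obtain ⟨k, hk⟩ := R.isPGroup' ⟨r, hr⟩
      refine ⟨r.2, k, ?_⟩
      have e := congrArg (fun y : (R : Subgroup A) => ((y : A) : G)) hk
      simpa using e
    have hidx : ¬ q ∣ Aq.index := by
      rw [← relIndex_mul_index hAqA]
      exact fun h => (hq.out.dvd_mul.1 h).elim hrel hquot
    have hcen : ∀ a ∈ Aq, ∀ g : G, g * a = a * g := by
      intro a ha g
      have hle : twoGen G ≤ centralizer (Aq : Set G) := by
        rw [closure_le]
        rintro s ⟨k, hk⟩
        have hs : s ∈ normalizer (Aq : Set G) := by rw [normalizer_eq_top]; trivial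
        have hodd := odd_orderOf_action hno hAqp ⟨s, hs⟩
        have hdv : orderOf (Aq.normalizerMonoidHom ⟨s, hs⟩) ∣ 2 ^ k := by
          refine (orderOf_map_dvd _ _).trans ?_
          rw [← orderOf_submonoid, ← hk]
        obtain ⟨l, -, hl⟩ := (Nat.dvd_prime_pow Nat.prime_two).1 hdv
        have hl0 : l = 0 := by
          by_contra hl0
          rw [hl] at hodd
          exact Nat.not_even_iff_odd.2 hodd ((Nat.even_pow).2 ⟨even_two, hl0⟩)
        rw [hl0, pow_zero, orderOf_eq_one_iff] at hl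
        rw [SetLike.mem_coe, mem_centralizer_iff]
        intro b hb
        have := congrArg (fun f => ((f ⟨b, hb⟩ : Aq) : G)) hl
        simp only [normalizerHom_coe, MulAut.one_apply, mul_inv_eq_iff_eq_mul] at this
        exact this.symm
      rw [hgen] at hle
      exact (mem_centralizer_iff.1 (hle (mem_top g)) a ha).symm
    obtain ⟨e, he⟩ := IsPGroup.iff_card.1 hAqp
    obtain ⟨L, hL⟩ := exists_right_complement'_of_coprime (N := Aq)
      (by rw [he]; exact Nat.Coprime.pow_left _ (hq.out.coprime_iff_not_dvd.2 hidx))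
    haveI hLn : L.Normal := ⟨fun l hl g => by
      obtain ⟨⟨⟨a, ha⟩, ⟨l', hl'⟩⟩, rfl⟩ := hL.2 g
      change a * l' * l * (a * l')⁻¹ ∈ L
      have : a * l' * l * (a * l')⁻¹ = l' * l * l'⁻¹ := by
        calc a * l' * l * (a * l')⁻¹ = a * (l' * l * l'⁻¹) * a⁻¹ := by group
          _ = _ := by rw [← hcen a ha (l' * l * l'⁻¹), mul_inv_cancel_right]
      rw [this]
      exact mul_mem (mul_mem hl' hl) (inv_mem hl')⟩
    have hLidx : L.index = q ^ e := by rw [hL.index_eq_card, he]
    have hLtop : L = ⊤ := by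
      rw [eq_top_iff, ← hgen, closure_le]
      rintro s ⟨k, hk⟩
      rw [SetLike.mem_coe, ← QuotientGroup.eq_one_iff, ← orderOf_eq_one_iff]
      refine Nat.eq_one_of_dvd_coprimes
        (Nat.Coprime.pow k e ((Nat.coprime_primes Nat.prime_two hq.out).2 (Ne.symm hq2)))
        (hk ▸ orderOf_map_dvd (QuotientGroup.mk' L) s) ?_
      rw [← hLidx, index_eq_card]
      exact orderOf_dvd_natCard _
    rw [hLtop, index_top] at hLidx
    have hAq1 : Nat.card Aq = 1 := by rw [he, ← hLidx]
    rw [← Aq.card_mul_index, hAq1, one_mul] at hdvd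
    exact hidx hdvd

/-- `q` does not divide the order of the subgroup generated by the 2-elements. -/
theorem not_dvd_card_twoGen [Fact q.Prime] (hq2 : q ≠ 2) [Group.IsSolvable G]
    (hno : NoReal q G) : ¬ q ∣ Nat.card (twoGen G) := by
  refine not_dvd_card_of_twoGen_eq_top hq2 _ (twoGen G) rfl ?_ ?_
  · intro x hx hr
    obtain ⟨k, hk⟩ := hx
    exact Subtype.ext (hno (x : G) ⟨k, by exact_mod_cast congrArg Subtype.val hk⟩
      (by simpa using (twoGen G).subtype.map_isConj hr))
  · refine eq_top_iff.2 ((closure_closure_coe_preimage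
      (k := {g : G | ∃ k : ℕ, orderOf g = 2 ^ k})).ge.trans ?_)
    refine closure_mono ?_
    rintro x ⟨k, hk⟩
    exact ⟨k, by rw [← orderOf_submonoid]; exact hk⟩

end Cfsg.Agent.H64.RealGraph
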